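import Cfsg.Agent.BT.E2b
import Cfsg.Agent.CycG.PrinData
import Cfsg.Agent.S0720
import Cfsg.Agent.S0494
import Cfsg.Agent.H12.EqualDegrees
import Cfsg.Agent.BR.Rows
import Cfsg.Agent.H75.Tools
import Cfsg.Agent.S2540

/-!
Primitive groups of degree `2p` with a Sylow normalizer of order `2p` (S4707).
-/

set_option autoImplicit false

open scoped ComplexConjugate

namespace Cfsg.Agent.BT

open Cfsg Subgroup Cfsg.Agent.BR MulAction
open Cfsg.Agent.CharBase (oneIrr)

universe u

theorem exists_ker {G : Type u} [Group G] [Finite G] (χ : IrrCharacter G) : ∃ K : Subgroup G,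
    K.Normal ∧ ∀ g, g ∈ K ↔ (χ : G → ℂ) g = (χ : G → ℂ) 1 := by
  obtain ⟨n, ρ, hρ, h⟩ := χ.2
  refine ⟨ρ.ker, inferInstance, fun g => ?_⟩
  rw [← h]
  exact (Cfsg.Agent.H75.rep_eq_char_one_iff ρ g).symm

/-- an exceptional character of large degree does not have `P` in its kernel. -/
theorem Ex.not_ker {G : Type u} [Group G] [Fintype G] {p : ℕ} [hp : Fact p.Prime] {P : Subgroup G}
    (st : Ex p P) {ψ : IrrCharacter G} (hψ : ψ ∈ st.B.Y) (h : p ≤ dg ψ * dg ψ) {x : G}
    (hx : x ∈ P) (hx1 : x ≠ 1) : (ψ : G → ℂ) x ≠ (ψ : G → ℂ) 1 := by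
  intro hxe
  have h1 := st.sum_Y_conj hx hx1
  have h2 : ∑ ξ ∈ st.B.Y, ‖(ξ : G → ℂ) x‖ ^ 2 = (p : ℝ) - ind P := by
    have h3 : ((∑ ξ ∈ st.B.Y, ‖(ξ : G → ℂ) x‖ ^ 2 : ℝ) : ℂ) = (((p : ℝ) - ind P : ℝ) : ℂ) := by
      push_cast
      rw [← h1]
      refine Finset.sum_congr rfl fun ξ _ => ?_
      rw [Complex.mul_conj, Complex.normSq_eq_norm_sq]
      push_cast
      rfl
    exact_mod_cast h3
  have h3 : ‖(ψ : G → ℂ) x‖ ^ 2 ≤ ∑ ξ ∈ st.B.Y, ‖(ξ : G → ℂ) x‖ ^ 2 :=
    Finset.single_le_sum (f := fun ξ : IrrCharacter G => ‖(ξ : G → ℂ) x‖ ^ 2)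
      (fun ξ _ => by positivity) hψ
  rw [h2, hxe, dg_eq] at h3
  have h4 : ‖(dg ψ : ℂ)‖ = dg ψ := by simp
  rw [h4] at h3
  have h5 : (p : ℝ) ≤ dg ψ * dg ψ := by exact_mod_cast h
  have h6 : (0 : ℝ) < ind P := by exact_mod_cast ind_pos P
  nlinarith

section

variable {α : Type u} [Fintype α] [DecidableEq α] {p : ℕ} [hp : Fact p.Prime]
  (hp3 : 3 < p) (hα : Fintype.card α = 2 * p) (G : Subgroup (Equiv.Perm α))

include hα in
theorem deg2p_normal (hprim : IsPreprimitive G α) {K : Subgroup G} (hK : K.Normal)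
    (h : ¬ p ∣ Nat.card K) : K = ⊥ := by
  by_contra hne
  have h1 : MulAction.IsPretransitive K α := by
    refine IsQuasiPreprimitive.isPretransitive_of_normal (G := G) (X := α) (N := K) ?_
    intro h2
    apply hne
    rw [eq_bot_iff]
    intro k hk
    rw [Subgroup.mem_bot]
    apply Subtype.ext
    ext a
    have h3 : a ∈ fixedPoints K α := by rw [h2]; exact Set.mem_univ a
    exact mem_fixedPoints.mp h3 ⟨k, hk⟩
  have hne' : Nonempty α := by
    rw [← Fintype.card_pos_iff, hα]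
    have := hp.out.pos
    omega
  obtain ⟨a⟩ := hne'
  have h2 : Nat.card α ∣ Nat.card K := by
    have h3 := MulAction.index_stabilizer_of_transitive K a
    rw [← h3]
    exact Subgroup.index_dvd_card _
  rw [Nat.card_eq_fintype_card, hα] at h2
  exact h ((Dvd.intro_left 2 rfl).trans h2)

include hα in
theorem deg2p_perm (hprim : IsPreprimitive G α) {P : Subgroup G} (hP : Sp p P) {x : G}
    (hx : x ∈ P) (hx1 : x ≠ 1) : H12.permChar G α x = 0 := by
  unfold H12.permChar
  rw [Nat.cast_eq_zero, Nat.card_eq_zero]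
  left
  constructor
  rintro ⟨a, ha⟩
  rw [mem_fixedBy] at ha
  have h1 := MulAction.index_stabilizer_of_transitive G a
  rw [Nat.card_eq_fintype_card, hα] at h1
  have h2 := (stabilizer G a).card_mul_index
  have h3 : p ∣ Nat.card (stabilizer G a) := by
    have h4 := orderOf_dvd_natCard (⟨x, ha⟩ : stabilizer G a)
    have h5 : orderOf (⟨x, ha⟩ : stabilizer G a) = p := by
      rw [← hP.orderOf_eq hx hx1, ← Subgroup.orderOf_coe]
    rwa [h5] at h4
  rw [h1] at h2
  obtain ⟨c, hc⟩ := h3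
  have h5 := P.card_mul_index
  rw [hP.card, ← h2, hc] at h5
  apply hP.idx
  refine ⟨2 * c, ?_⟩
  have h6 : p * P.index = p * (p * (2 * c)) := by rw [h5]; ring
  exact Nat.eq_of_mul_eq_mul_left hp.out.pos h6


include hp3 hα in
theorem deg2p_self (hprim : IsPreprimitive G α) {P : Subgroup G} (hP : Sp p P)
    (hN : Nat.card (normalizer (P : Set G)) = 2 * p) : centralizer (P : Set G) = P := by
  obtain ⟨Q, hQ⟩ := hP.exists_sylow
  subst hQ
  have hcard := hP.card
  have hcyc : IsCyclic (Q : Subgroup G) := isCyclic_of_prime_card hcard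
  have hcomm : IsMulCommutative (Q : Subgroup G) := IsCyclic.isMulCommutative
  have h1 : (Q : Subgroup G) ≤ centralizer ((Q : Subgroup G) : Set G) :=
    Subgroup.le_centralizer_iff_isMulCommutative.mpr hcomm
  have h2 := centralizer_le_normalizer' (Q : Subgroup G)
  obtain ⟨c, hc⟩ := Subgroup.card_dvd_of_le h1
  obtain ⟨d, hd⟩ := Subgroup.card_dvd_of_le h2
  rw [hcard] at hc
  rw [hN, hc] at hd
  have h3 : c * d = 2 := by
    have : p * (c * d) = p * 2 := by rw [← mul_assoc, ← hd]; ring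
    exact Nat.eq_of_mul_eq_mul_left hp.out.pos this
  have hc' : c = 1 ∨ c = 2 := (Nat.dvd_prime Nat.prime_two).mp ⟨d, h3.symm⟩
  rcases hc' with rfl | rfl
  · symm
    apply Subgroup.eq_of_le_of_card_ge h1
    rw [hc, mul_one, hcard]
  · exfalso
    have hN' : normalizer ((Q : Subgroup G) : Set G) ≤ centralizer ((Q : Subgroup G) : Set G) := by
      apply le_of_eq
      symm
      apply Subgroup.eq_of_le_of_card_ge h2
      rw [hN, hc, mul_comm]
    have h3 := MonoidHom.ker_transferSylow_isComplement' Q hN'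
    have h5 := h3.card_mul
    rw [hcard] at h5
    have h6 := deg2p_normal hα G hprim
      (inferInstance : (MonoidHom.transferSylow Q hN').ker.Normal) (by
        intro h
        obtain ⟨c, hc⟩ := h
        have h7 := (Q : Subgroup G).card_mul_index
        rw [hcard, ← h5, hc] at h7
        apply hP.idx
        refine ⟨c, ?_⟩
        have h8 : p * (Q : Subgroup G).index = p * (p * c) := by rw [h7]; ring
        exact Nat.eq_of_mul_eq_mul_left hp.out.pos h8)
    rw [h6, Subgroup.card_bot, one_mul] at h5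
    have h7 := Subgroup.card_le_card_group (normalizer ((Q : Subgroup G) : Set G))
    rw [hN, ← h5] at h7
    omega

include hp3 hα in
theorem deg2p_e2 (hprim : IsPreprimitive G α) {P : Subgroup G} (hP : Sp p P)
    (hN : Nat.card (normalizer (P : Set G)) = 2 * p) (hrank : Nat.card
      (orbitRel.Quotient G (α × α)) = 3) : Nonempty (E2 p P) := by
  classical
  have hfin : Fintype (IrrCharacter G) := Fintype.ofFinite _
  have hne' : Nonempty α := by
    rw [← Fintype.card_pos_iff, hα]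
    have := hp.out.pos
    omega
  have hpp := hp.out
  have hp5 : 5 ≤ p := by
    by_contra hlt
    have : p = 4 := by omega
    rw [this] at hpp
    exact absurd hpp (by norm_num)
  have hC := deg2p_self hp3 hα G hprim hP hN
  obtain ⟨B⟩ := CycG.nonempty_data hP
  set st : Ex p P := ⟨hP, hC, B, by omega⟩ with hst
  have he : ind P = 2 := by
    have h1 := st.card_N
    rw [hN, mul_comm] at h1
    exact (Nat.eq_of_mul_eq_mul_left hpp.pos h1).symm
  have hPr : IsPretransitive G α := hprim.toIsPretransitive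
  set π := H12.permChar G α with hπ
  have hπc : IsCharacter G π := H12.isCharacter_permChar G α
  have hπ0 : ∀ x ∈ P, x ≠ 1 → π x = 0 := fun x hx hx1 => deg2p_perm hα G hprim hP hx hx1
  obtain ⟨m, hm, hsum⟩ := CharBase.exists_mult_of_isCharacter hπc
  have hnorm := H12.permChar_norm hm hsum
  rw [hrank] at hnorm
  have hm1 : m (oneIrr G) = 1 := by
    have h1 := hm (oneIrr G)
    have h2 := H12.classInner_permChar_one (G := G) (Ω := α)
    have h3 : classInner π ((oneIrr G : IrrCharacter G) : G → ℂ) = 1 := h2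
    rw [h3] at h1
    exact_mod_cast h1.symm
  have hdeg : ∑ χ : IrrCharacter G, m χ * dg χ = 2 * p := by
    have h1 := congrFun hsum 1
    rw [Finset.sum_apply, hπ, H12.permChar_one, hα] at h1
    have h2 : ((2 * p : ℕ) : ℂ) = ((∑ χ : IrrCharacter G, m χ * dg χ : ℕ) : ℂ) := by
      rw [h1]
      push_cast
      refine Finset.sum_congr rfl fun χ _ => ?_
      rw [Pi.smul_apply, dg_eq, nsmul_eq_mul]
    exact_mod_cast h2.symm
  -- the exceptional multiplicities are equal
  have heq : ∀ ψ ∈ B.Y, ∀ ψ' ∈ B.Y, m ψ = m ψ' := by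
    intro ψ hψ ψ' hψ'
    have h1 : classInner ((ψ : G → ℂ) - (ψ' : G → ℂ)) π = classInner ((ψ : G → ℂ) - (ψ' : G → ℂ)) 0 := by
      refine st.inner_agree (CharBase.isClassFunction_sub (CharBase.irr_isClassFunction _)
        (CharBase.irr_isClassFunction _)) (CharBase.isClassFunction_of_isCharacter hπc)
        (fun _ _ => rfl) ?_ (fun x hx hx1 => hπ0 x hx hx1)
      intro g hg
      rw [Pi.sub_apply, B.Y_eq hψ hψ' hg, sub_self]
    have h2 : classInner ((ψ : G → ℂ) - (ψ' : G → ℂ)) 0 = 0 := by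
      unfold classInner
      simp
    rw [h2, CharBase.classInner_sub_left, CharBase.classInner_comm_of_isCharacter
      (CharBase.irr_isCharacter ψ) hπc, CharBase.classInner_comm_of_isCharacter
      (CharBase.irr_isCharacter ψ') hπc, hm, hm, sub_eq_zero] at h1
    exact_mod_cast h1
  obtain ⟨ψ₀, hψ₀⟩ := B.Y_nonempty (by omega)
  have hcY : 2 * B.Y.card + 1 = p := by
    have h1 := B.cardY
    rw [he] at h1
    omega
  have h1dg : dg (oneIrr G) = 1 := by
    have : ((dg (oneIrr G) : ℕ) : ℂ) = 1 := by rw [← dg_eq, CharBase.oneIrr_apply]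
    exact_mod_cast this
  have h1Y : oneIrr G ∉ B.Y := fun h => Finset.disjoint_left.mp B.disj B.one_mem h
  -- they vanish
  have hY0 : ∀ ψ ∈ B.Y, m ψ = 0 := by
    by_contra hcon
    push Not at hcon
    obtain ⟨ψ, hψ, hψm⟩ := hcon
    have h1 := Finset.sum_add_sum_compl (insert (oneIrr G) B.Y) (fun χ => m χ ^ 2)
    have h2 := Finset.sum_add_sum_compl (insert (oneIrr G) B.Y) (fun χ => m χ * dg χ)
    rw [Finset.sum_insert h1Y, Finset.sum_congr rfl (fun ξ hξ => by rw [heq ξ hξ ψ hψ]),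
      Finset.sum_const, smul_eq_mul, hm1, ← hnorm] at h1
    rw [Finset.sum_insert h1Y, Finset.sum_congr rfl (fun ξ hξ => by
      rw [heq ξ hξ ψ hψ, B.dg_Y hξ hψ]), Finset.sum_const, smul_eq_mul, hm1, h1dg, hdeg] at h2
    have h3 : 1 ≤ m ψ ^ 2 := Nat.one_le_pow _ _ (by omega)
    have h4 : B.Y.card * 1 ≤ B.Y.card * m ψ ^ 2 := Nat.mul_le_mul_left _ h3
    have h5 : B.Y.card = 2 := by omega
    rw [h5] at h1 h2
    have h6 : m ψ ^ 2 = 1 := by omega
    have h7 : m ψ = 1 := by
      have : m ψ ^ 2 = 1 ^ 2 := by rw [h6, one_pow]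
      exact Nat.pow_left_injective (by norm_num) this
    have h8 : ∑ χ ∈ (insert (oneIrr G) B.Y)ᶜ, m χ ^ 2 = 0 := by omega
    have h9 : ∑ χ ∈ (insert (oneIrr G) B.Y)ᶜ, m χ * dg χ = 0 := by
      refine Finset.sum_eq_zero fun χ hχ => ?_
      have := Finset.sum_eq_zero_iff.mp h8 χ hχ
      rw [pow_eq_zero_iff (by norm_num)] at this
      rw [this, zero_mul]
    rw [h9, h7] at h2
    omega
  -- the structure of `X`
  have hcX := B.cardX
  rw [he] at hcX
  obtain ⟨a, b, hab, hX⟩ := Finset.card_eq_two.mp hcX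
  have h2 := B.one_mem
  obtain ⟨χ, hχ1, hX'⟩ : ∃ χ : IrrCharacter G, χ ≠ oneIrr G ∧ B.X = {oneIrr G, χ} := by
    rw [hX, Finset.mem_insert, Finset.mem_singleton] at h2
    rcases h2 with h | h
    · exact ⟨b, by rw [h]; exact hab.symm, by rw [hX, h]⟩
    · exact ⟨a, by rw [h]; exact hab, by rw [hX, h, Finset.pair_comm]⟩
  have hχ : χ ∈ B.X := by rw [hX']; simp
  obtain ⟨x, hx, hx1⟩ := exists_ne_one hP
  have hval : (1 : ℤ) + m χ * B.δ χ = 0 := by
    have h1 := congrFun hsum x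
    rw [hπ0 x hx hx1, Finset.sum_apply, st.sum_split (fun χ => (m χ • (χ : G → ℂ)) x) (by
      intro χ h h'
      rw [Pi.smul_apply, B.out hC χ h h' x hx hx1, smul_zero])] at h1
    have h3 : ∑ ψ ∈ st.B.Y, (m ψ • (ψ : G → ℂ)) x = 0 := by
      refine Finset.sum_eq_zero fun ψ hψ => ?_
      rw [hY0 ψ hψ, zero_smul, Pi.zero_apply]
    have h4 : st.B.X = {oneIrr G, χ} := hX'
    rw [h3, add_zero, h4, Finset.sum_pair hχ1.symm, hm1, one_smul, CharBase.oneIrr_apply,
      Pi.smul_apply, B.val_one hχ hx hx1, nsmul_eq_mul] at h1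
    exact_mod_cast h1.symm
  have hδχ : B.δ χ = -1 := by
    rcases B.sgn χ hχ with h | h
    · rw [h] at hval
      omega
    · exact h
  have hmχ : m χ = 1 := by
    rw [hδχ] at hval
    omega
  -- the remaining constituent
  have h1 := Finset.sum_add_sum_compl B.X (fun χ => m χ ^ 2)
  have h2 := Finset.sum_add_sum_compl B.X (fun χ => m χ * dg χ)
  rw [hX', Finset.sum_pair hχ1.symm, hm1, hmχ, ← hnorm] at h1
  rw [hX', Finset.sum_pair hχ1.symm, hm1, hmχ, hdeg, h1dg] at h2
  have h3 : p ∣ ∑ ξ ∈ ({oneIrr G, χ} : Finset (IrrCharacter G))ᶜ, m ξ * dg ξ := by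
    refine Finset.dvd_sum fun ξ hξ => ?_
    rw [Finset.mem_compl, ← hX'] at hξ
    rcases st.mem_or ξ with h | h | h
    · exact absurd h hξ
    · rw [hY0 ξ h, zero_mul]; exact dvd_zero _
    · exact h.mul_left _
  have h4 : 0 < ∑ ξ ∈ ({oneIrr G, χ} : Finset (IrrCharacter G))ᶜ, m ξ * dg ξ := by
    by_contra h0
    have h0' : ∑ ξ ∈ ({oneIrr G, χ} : Finset (IrrCharacter G))ᶜ, m ξ * dg ξ = 0 := by omega
    have h5 : ∑ ξ ∈ ({oneIrr G, χ} : Finset (IrrCharacter G))ᶜ, m ξ ^ 2 = 0 := by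
      refine Finset.sum_eq_zero fun ξ hξ => ?_
      have := Finset.sum_eq_zero_iff.mp h0' ξ hξ
      have h6 := dg_pos ξ
      rcases Nat.mul_eq_zero.mp this with h | h
      · rw [h]; norm_num
      · omega
    rw [h5] at h1
    omega
  obtain ⟨c, hc⟩ := h3
  rw [hc] at h2 h4
  have hc1 : c = 1 := by
    rcases Nat.lt_or_ge c 2 with h | h
    · rcases Nat.eq_zero_or_pos c with h' | h'
      · rw [h', mul_zero] at h4; omega
      · omega
    · exfalso
      have := Nat.mul_le_mul_left p h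
      have h6 := dg_pos χ
      omega
  rw [hc1] at h2
  have hdχ : dg χ + 1 = p := by omega
  have hdeg0 : ∀ ψ ∈ B.Y, B.δ₀ * (dg ψ : ℤ) = p - 2 := by
    intro ψ hψ
    have h3 := B.degEq hψ
    rw [hX', Finset.sum_pair hχ1.symm, B.δ_one hP, hδχ, h1dg] at h3
    have : (dg χ : ℤ) = p - 1 := by omega
    rw [this] at h3
    push_cast at h3
    linear_combination h3
  have hδ₀ : B.δ₀ = 1 := by
    rcases B.sgn₀ with h | h
    · exact h
    · exfalso
      have h3 := hdeg0 ψ₀ hψ₀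
      rw [h] at h3
      omega
  have hdY : ∀ ψ ∈ B.Y, dg ψ + 2 = p := by
    intro ψ hψ
    have h3 := hdeg0 ψ hψ
    rw [hδ₀] at h3
    omega
  refine ⟨⟨st, he, hδ₀, hdY, ?_, hp5⟩⟩
  intro ψ hψ g hg
  obtain ⟨K, hK, hKm⟩ := exists_ker ψ
  have hKb : K = ⊥ := by
    apply deg2p_normal hα G hprim hK
    intro hdvd
    obtain ⟨y, hy⟩ := exists_prime_orderOf_dvd_card' p hdvd
    have hy' : orderOf (y : G) = p := by rw [Subgroup.orderOf_coe]; exact hy
    obtain ⟨c, hc⟩ := hP.exists_conj hy'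
    have hc1 : c⁻¹ * (y : G) * c ≠ 1 := by
      intro h1
      have : (y : G) = c * (c⁻¹ * (y : G) * c) * c⁻¹ := by group
      rw [h1] at this
      have h2 : (y : G) = 1 := by rw [this]; group
      rw [h2, orderOf_one] at hy'
      exact hpp.one_lt.ne hy'
    have hcK : c⁻¹ * (y : G) * c ∈ K := by
      have := hK.conj_mem y y.2 c⁻¹
      rwa [inv_inv] at this
    refine st.not_ker hψ ?_ hc hc1 ((hKm _).mp hcK)
    have h6 := hdY ψ hψ
    have h7 : dg ψ = p - 2 := by omega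
    rw [h7]
    obtain ⟨q, rfl⟩ : ∃ q, p = q + 5 := ⟨p - 5, by omega⟩
    have : q + 5 - 2 = q + 3 := by omega
    rw [this]
    nlinarith
  rw [← Subgroup.mem_bot, ← hKb]
  exact (hKm g).mpr hg

include hp3 hα in
theorem deg2p_main (hprim : IsPreprimitive G α) (hnot2 : ¬ IsMultiplyPretransitive G α 2)
    {P : Subgroup G} (hP : Sp p P) (hN : Nat.card (normalizer (P : Set G)) = 2 * p) :
    p = 5 ∧ Nonempty (G ≃* alternatingGroup (Fin 5)) := by
  classical
  have hfin : Fintype (IrrCharacter G) := Fintype.ofFinite _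
  have hne' : Nonempty α := by
    rw [← Fintype.card_pos_iff, hα]
    have := hp.out.pos
    omega
  obtain ⟨a₀⟩ := hne'
  have hPr : IsPretransitive G α := hprim.toIsPretransitive
  obtain ⟨h3, a, ha, hpa, -⟩ := (S0720.result hp.out hα G hprim a₀).resolve_left hnot2
  rw [← H12.card_orbits_prod_eq] at h3
  obtain ⟨d⟩ := deg2p_e2 hp3 hα G hprim hP hN h3
  obtain ⟨m, F, hF, hF', hm2, hpm, hFc, ⟨e⟩⟩ := d.ident
  have h4 : a * (a + 1) = 2 ^ (m - 1) := by
    have h5 : 2 ^ m = 2 * 2 ^ (m - 1) := by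
      rw [← pow_succ']
      congr 1
      omega
    have h6 : 2 ^ m = 2 * (a * (a + 1)) := by
      have : 2 ^ m + 1 = 2 * (a * (a + 1)) + 1 := by rw [← hpm, hpa]; ring
      omega
    omega
  have ha1 : a = 1 := by
    obtain ⟨i, -, hi⟩ := (Nat.dvd_prime_pow Nat.prime_two).mp (Dvd.intro _ h4)
    obtain ⟨j, -, hj⟩ := (Nat.dvd_prime_pow Nat.prime_two).mp (Dvd.intro_left _ h4)
    rcases Nat.eq_zero_or_pos i with h | h
    · rw [hi, h, pow_zero]
    · exfalso
      have h7 : 2 ∣ a := by rw [hi]; exact dvd_pow_self 2 h.ne'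
      rcases Nat.eq_zero_or_pos j with h' | h'
      · rw [h', pow_zero] at hj
        omega
      · have h8 : 2 ∣ a + 1 := by rw [hj]; exact dvd_pow_self 2 h'.ne'
        omega
  rw [ha1] at hpa
  have hp5 : p = 5 := by omega
  refine ⟨hp5, ?_⟩
  have h2m : 2 ^ m = 4 := by omega
  have hm : m = 2 := by
    have : 2 ^ m = 2 ^ 2 := by rw [h2m]; norm_num
    exact Nat.pow_right_injective (le_refl 2) this
  have hm0 : m ≠ 0 := by omega
  obtain ⟨e'⟩ := sl_equiv_psl hm0 hFc
  have hs := S2540.psl_simple (F := F) 2 le_rfl (by rintro ⟨-, h⟩; rw [hFc, h2m] at h; omega)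
  have e'' := e.trans e'
  have hsG : IsSimpleGroup G := e''.isSimpleGroup_congr.mpr hs
  have hc : Nat.card G = 60 := by
    rw [Nat.card_congr e.toEquiv, card_SL hm0 hFc, h2m]
  exact S0494.result hc

end

end Cfsg.Agent.BT
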