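import Cfsg.Agent.H35.CRb

/-!
# S4146: class sizes 1, n, m, nm. Definitions and first facts.
-/

set_option autoImplicit false

namespace Cfsg.Agent.BT.Fc

open Cfsg.Agent.H35.CR

universe u

/-- `g` is a `p`-element. -/
def PE {G : Type u} [Group G] (p : ℕ) (g : G) : Prop := ∃ k : ℕ, g ^ p ^ k = 1

/-- class size -/
noncomputable def cs {G : Type u} [Group G] (g : G) : ℕ := (cz g).index

structure F4 (G : Type u) [Group G] [Finite G] (n m : ℕ) : Prop where
  hn : 1 < n
  hm : 1 < m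
  cop : n.Coprime m
  all : ∀ g : G, cs g = 1 ∨ cs g = n ∨ cs g = m ∨ cs g = n * m
  exn : ∃ g : G, cs g = n
  exm : ∃ g : G, cs g = m
  exnm : ∃ g : G, cs g = n * m

variable {G : Type u} [Group G] [Finite G]

theorem F4.symm {n m : ℕ} (h : F4 G n m) : F4 G m n where
  hn := h.hm
  hm := h.hn
  cop := h.cop.symm
  all := fun g => by
    rcases h.all g with h1 | h1 | h1 | h1
    · exact Or.inl h1
    · exact Or.inr (Or.inr (Or.inl h1))
    · exact Or.inr (Or.inl h1)
    · exact Or.inr (Or.inr (Or.inr (by rw [h1, mul_comm])))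
  exn := h.exm
  exm := h.exn
  exnm := by obtain ⟨g, hg⟩ := h.exnm; exact ⟨g, by rw [hg, mul_comm]⟩

theorem cs_ne_zero (g : G) : cs g ≠ 0 := Subgroup.index_ne_zero_of_finite

theorem cs_pos (g : G) : 0 < cs g := Nat.pos_of_ne_zero (cs_ne_zero g)

theorem cs_mul_card (g : G) : cs g * Nat.card (cz g) = Nat.card G := by
  rw [mul_comm]; exact Subgroup.card_mul_index _

theorem cs_dvd {x y : G} (h : cz x ≤ cz y) : cs y ∣ cs x := Subgroup.index_dvd_of_le h

theorem cz_eq_of_cs {x y : G} (h : cz x ≤ cz y) (hc : cs x = cs y) : cz x = cz y := by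
  refine le_antisymm h ?_
  have h1 := Subgroup.relIndex_mul_index h
  have h2 : (cz y).index ≠ 0 := Subgroup.index_ne_zero_of_finite
  have h3 : (cz x).relIndex (cz y) = 1 := by
    have h4 : (cz x).relIndex (cz y) * (cz y).index = 1 * (cz y).index := by rw [h1, one_mul]; exact hc
    exact Nat.eq_of_mul_eq_mul_right (Nat.pos_of_ne_zero h2) h4
  exact Subgroup.relIndex_eq_one.1 h3

theorem cs_eq_one {g : G} : cs g = 1 ↔ g ∈ Subgroup.center G := by
  rw [cs, Subgroup.index_eq_one]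
  constructor
  · intro h
    rw [Subgroup.mem_center_iff]
    intro x
    have : x ∈ cz g := by rw [h]; trivial
    exact mem_cz.1 this
  · intro h
    rw [eq_top_iff]
    intro x _
    exact mem_cz.2 (Subgroup.mem_center_iff.1 h x)

theorem cs_conj (g x : G) : cs (g * x * g⁻¹) = cs x := by
  have h := c_conj g x
  have h1 := cs_mul_card x
  have h2 := cs_mul_card (g * x * g⁻¹)
  have h3 : Nat.card (cz (g * x * g⁻¹)) = Nat.card (cz x) := h
  rw [h3, ← h1] at h2
  exact Nat.eq_of_mul_eq_mul_right Nat.card_pos h2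

theorem cz_mul {x w : G} (hxw : x * w = w * x) (hcop : (orderOf x).Coprime (orderOf w)) :
    cz (x * w) = cz x ⊓ cz w := by
  refine le_antisymm (le_inf (cz_mul_le hxw hcop) (cz_mul_le' hxw hcop)) ?_
  intro z hz
  have h1 := mem_cz.1 hz.1
  have h2 := mem_cz.1 hz.2
  rw [mem_cz, ← mul_assoc, h1, mul_assoc, h2, mul_assoc]

theorem PE.orderOf {p : ℕ} (hp : p.Prime) {g : G} (h : PE p g) : ∃ k : ℕ, orderOf g = p ^ k := by
  obtain ⟨k, hk⟩ := h
  obtain ⟨j, _, hj⟩ := (Nat.dvd_prime_pow hp).1 (orderOf_dvd_of_pow_eq_one hk)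
  exact ⟨j, hj⟩

theorem PE.cop {p q : ℕ} (hp : p.Prime) (hq : q.Prime) (hpq : p ≠ q) {x y : G} (hx : PE p x) (hy : PE q y) :
    (_root_.orderOf x).Coprime (_root_.orderOf y) := by
  obtain ⟨j, hj⟩ := hx.orderOf hp
  obtain ⟨k, hk⟩ := hy.orderOf hq
  rw [hj, hk]
  exact Nat.Coprime.pow _ _ ((Nat.coprime_primes hp hq).2 hpq)

end Cfsg.Agent.BT.Fc
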