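import Cfsg.Agent.BT.FcDef
import Cfsg.Agent.H67.ConjCover

/-!
# S4146: primary parts, centralizers modulo the centre.
-/

set_option autoImplicit false
set_option linter.style.haveILetI false
set_option linter.unusedSectionVars false

namespace Cfsg.Agent.BT.Fc

open Cfsg.Agent.H35.CR

universe u

variable {G : Type u} [Group G] [Finite G]

/-- primary part of a noncentral element for a given prime divisor of the order modulo the centre. -/
theorem exists_primary_of {g : G} {r : ℕ} (hr : r.Prime)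
    (hd : r ∣ orderOf (QuotientGroup.mk g : G ⧸ Subgroup.center G)) :
    ∃ k : ℕ, PE r (g ^ k) ∧ g ^ k ∉ Subgroup.center G := by
  set N := orderOf g with hN
  have hN0 : N ≠ 0 := (orderOf_pos g).ne'
  refine ⟨N / r ^ N.factorization r, ⟨N.factorization r, ?_⟩, ?_⟩
  · rw [← pow_mul, Nat.div_mul_cancel (Nat.ordProj_dvd N r), hN, pow_orderOf_eq_one]
  · intro hc
    have h1 : (QuotientGroup.mk g : G ⧸ Subgroup.center G) ^ (N / r ^ N.factorization r) = 1 := by
      rw [← QuotientGroup.mk_pow]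
      exact (QuotientGroup.eq_one_iff _).2 hc
    exact Nat.not_dvd_ordCompl hr hN0 (hd.trans (orderOf_dvd_of_pow_eq_one h1))

theorem exists_primary {g : G} (hg : g ∉ Subgroup.center G) :
    ∃ (r k : ℕ), r.Prime ∧ PE r (g ^ k) ∧ g ^ k ∉ Subgroup.center G := by
  have h1 : orderOf (QuotientGroup.mk g : G ⧸ Subgroup.center G) ≠ 1 := by
    intro h
    exact hg ((QuotientGroup.eq_one_iff _).1 (orderOf_eq_one_iff.1 h))
  obtain ⟨r, hr, hd⟩ := Nat.exists_prime_and_dvd h1
  obtain ⟨k, hk⟩ := exists_primary_of hr hd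
  exact ⟨r, k, hr, hk⟩

theorem cz_pow_le (g : G) (k : ℕ) : cz g ≤ cz (g ^ k) := cz_le_pow g k

theorem not_central_of_cs {g : G} (h : cs g ≠ 1) : g ∉ Subgroup.center G := fun hc => h (cs_eq_one.2 hc)

theorem center_le_cz (g : G) : Subgroup.center G ≤ cz g := by
  intro z hz
  exact mem_cz.2 ((Subgroup.mem_center_iff.1 hz g).symm)

theorem PE.mk {r : ℕ} {g : G} (h : PE r g) : PE r (QuotientGroup.mk g : G ⧸ Subgroup.center G) := by
  obtain ⟨k, hk⟩ := h
  exact ⟨k, by rw [← QuotientGroup.mk_pow, hk]; rfl⟩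

/-- a noncentral `r`-element has order divisible by `r` modulo the centre. -/
theorem PE.dvd_mk {r : ℕ} (hr : r.Prime) {g : G} (h : PE r g) (hg : g ∉ Subgroup.center G) :
    r ∣ _root_.orderOf (QuotientGroup.mk g : G ⧸ Subgroup.center G) := by
  obtain ⟨k, hk⟩ := h.mk.orderOf hr
  rw [hk]
  rcases Nat.eq_zero_or_pos k with h0 | h0
  · exfalso
    rw [h0, pow_zero] at hk
    exact hg ((QuotientGroup.eq_one_iff _).1 (orderOf_eq_one_iff.1 hk))
  · exact dvd_pow_self r h0.ne'

theorem relIndex_center (H : Subgroup G) :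
    (Subgroup.center G).relIndex H = Nat.card (H.map (QuotientGroup.mk' (Subgroup.center G))) := by
  rw [← Subgroup.relIndex_ker, QuotientGroup.ker_mk']

/-- `r`-elements outside the centre. -/
theorem exists_PE_of_dvd {H : Subgroup G} {r : ℕ} (hr : r.Prime) (hd : r ∣ (Subgroup.center G).relIndex H) :
    ∃ w ∈ H, PE r w ∧ w ∉ Subgroup.center G := by
  haveI : Fact r.Prime := ⟨hr⟩
  rw [relIndex_center] at hd
  obtain ⟨⟨v, hv⟩, hvo⟩ := exists_prime_orderOf_dvd_card' r hd
  obtain ⟨h, hh, rfl⟩ := hv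
  have h1 : orderOf ((QuotientGroup.mk' (Subgroup.center G)) h) = r := by
    rw [← hvo, ← Subgroup.orderOf_coe]
  obtain ⟨k, hk, hk2⟩ := exists_primary_of (g := h) hr (by
    show r ∣ orderOf ((QuotientGroup.mk' (Subgroup.center G)) h)
    rw [h1])
  exact ⟨h ^ k, H.pow_mem hh k, hk, hk2⟩

theorem dvd_of_PE {H : Subgroup G} {r : ℕ} (hr : r.Prime) {w : G} (hw : w ∈ H) (hwr : PE r w)
    (hwc : w ∉ Subgroup.center G) : r ∣ (Subgroup.center G).relIndex H := by
  rw [relIndex_center]
  have h1 := hwr.dvd_mk hr hwc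
  have h2 : QuotientGroup.mk' (Subgroup.center G) w ∈ H.map (QuotientGroup.mk' (Subgroup.center G)) :=
    Subgroup.mem_map_of_mem _ hw
  have h3 := orderOf_dvd_natCard (⟨_, h2⟩ : H.map (QuotientGroup.mk' (Subgroup.center G)))
  rw [← Subgroup.orderOf_coe] at h3
  exact h1.trans h3

theorem index_center (g : G) : (Subgroup.center G).relIndex (cz g) * cs g = (Subgroup.center G).index :=
  Subgroup.relIndex_mul_index (center_le_cz g)

/-- Lemma T': if all `r`-elements of `cz y` are central and `cz u` has a noncentral `r`-element then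
`cs y` does not divide `cs u`. -/
theorem lemT {r : ℕ} (hr : r.Prime) {y u : G} (hy : ∀ w ∈ cz y, PE r w → w ∈ Subgroup.center G)
    {w : G} (hw : w ∈ cz u) (hwr : PE r w) (hwc : w ∉ Subgroup.center G) : ¬ cs y ∣ cs u := by
  intro hd
  have h1 := dvd_of_PE hr hw hwr hwc
  have h2 : (Subgroup.center G).relIndex (cz u) ∣ (Subgroup.center G).relIndex (cz y) := by
    obtain ⟨c, hc⟩ := hd
    have h3 := index_center y
    have h4 := index_center u
    rw [hc, ← h3] at h4
    refine ⟨c, ?_⟩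
    have h5 := cs_pos y
    apply Nat.eq_of_mul_eq_mul_right h5
    rw [← h4]; ring
  obtain ⟨w', hw', hwr', hwc'⟩ := exists_PE_of_dvd hr (h1.trans h2)
  exact hwc' (hy w' hw' hwr')

theorem cs_dvd_index_center (g : G) : cs g ∣ (Subgroup.center G).index :=
  ⟨_, by rw [← index_center g, mul_comm]⟩

/-- a prime dividing `|G : Z|` but not `cs g` gives a noncentral element in `cz g`. -/
theorem exists_PE_cz {r : ℕ} (hr : r.Prime) {g : G} (hd : r ∣ (Subgroup.center G).index) (hg : ¬ r ∣ cs g) :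
    ∃ w ∈ cz g, PE r w ∧ w ∉ Subgroup.center G := by
  rw [← index_center g] at hd
  rcases hr.dvd_mul.1 hd with h1 | h1
  · exact exists_PE_of_dvd hr h1
  · exact absurd h1 hg

/-- if `r` divides no class size then `r`-elements are central. -/
theorem central_of_not_dvd {r : ℕ} (hr : r.Prime) (h : ∀ g : G, ¬ r ∣ cs g) {w : G} (hw : PE r w) :
    w ∈ Subgroup.center G := by
  haveI : Fact r.Prime := ⟨hr⟩
  obtain ⟨k, hk⟩ := hw
  have hzp : IsPGroup r (Subgroup.zpowers w) := by
    obtain ⟨j, hj⟩ := PE.orderOf hr ⟨k, hk⟩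
    refine IsPGroup.of_card (n := j) ?_
    rw [Nat.card_zpowers, hj]
  obtain ⟨R, hR⟩ := hzp.exists_le_sylow
  have hwR : w ∈ (R : Subgroup G) := hR (Subgroup.mem_zpowers w)
  have htop : Subgroup.centralizer ((R : Subgroup G) : Set G) = ⊤ := by
    apply Cfsg.Agent.H67.eq_top_of_conj_cover
    intro g
    have h1 : ¬ r ∣ (cz g).index := h g
    -- a Sylow subgroup inside cz g
    obtain ⟨S⟩ : Nonempty (Sylow r (cz g)) := inferInstance
    have hS : IsPGroup r ((S : Subgroup (cz g)).map (cz g).subtype) := S.2.map _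
    obtain ⟨T, hT⟩ := hS.exists_le_sylow
    have hcard : Nat.card ((S : Subgroup (cz g)).map (cz g).subtype) = Nat.card T := by
      rw [Subgroup.card_map_of_injective (Subgroup.subtype_injective _), S.card_eq_multiplicity,
        T.card_eq_multiplicity]
      congr 1
      have h2 : Nat.card G = Nat.card (cz g) * (cz g).index := (Subgroup.card_mul_index _).symm
      rw [h2, Nat.factorization_mul Nat.card_pos.ne' Subgroup.index_ne_zero_of_finite]
      simp [Nat.factorization_eq_zero_of_not_dvd h1]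
    have hTeq : (S : Subgroup (cz g)).map (cz g).subtype = T :=
      Subgroup.eq_of_le_of_card_ge hT hcard.ge
    have hTg : (T : Subgroup G) ≤ cz g := by
      rw [← hTeq]; exact Subgroup.map_subtype_le _
    obtain ⟨c, hc⟩ := MulAction.exists_smul_eq G T R
    refine ⟨c, ?_⟩
    rw [Subgroup.mem_centralizer_iff]
    intro x hx
    rw [← hc] at hx
    obtain ⟨t, ht, rfl⟩ := hx
    have h3 := mem_cz.1 (hTg ht)
    show (c * t * c⁻¹) * (c * g * c⁻¹) = (c * g * c⁻¹) * (c * t * c⁻¹)
    calc (c * t * c⁻¹) * (c * g * c⁻¹) = c * (t * g) * c⁻¹ := by group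
      _ = c * (g * t) * c⁻¹ := by rw [h3]
      _ = (c * g * c⁻¹) * (c * t * c⁻¹) := by group
  rw [Subgroup.mem_center_iff]
  intro g
  have h1 : g ∈ Subgroup.centralizer ((R : Subgroup G) : Set G) := by rw [htop]; trivial
  exact ((Subgroup.mem_centralizer_iff.1 h1) w hwR).symm

/-- Sylow subgroups in centralizers of elements whose class size is prime to `r`. -/
theorem exists_sylow_le {r : ℕ} (hr : r.Prime) {g : G} (h1 : ¬ r ∣ cs g) {D : Subgroup G} (hD : IsPGroup r D)
    (hDg : D ≤ cz g) : ∃ R : Sylow r G, D ≤ R ∧ (R : Subgroup G) ≤ cz g := by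
  haveI : Fact r.Prime := ⟨hr⟩
  have hD' : IsPGroup r (D.subgroupOf (cz g)) := hD.comap_of_injective _ (Subgroup.subtype_injective _)
  obtain ⟨S, hDS⟩ := hD'.exists_le_sylow
  have hS : IsPGroup r ((S : Subgroup (cz g)).map (cz g).subtype) := S.2.map _
  obtain ⟨T, hT⟩ := hS.exists_le_sylow
  have hcard : Nat.card ((S : Subgroup (cz g)).map (cz g).subtype) = Nat.card T := by
    rw [Subgroup.card_map_of_injective (Subgroup.subtype_injective _), S.card_eq_multiplicity,
      T.card_eq_multiplicity]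
    congr 1
    have h2 : Nat.card G = Nat.card (cz g) * (cz g).index := (Subgroup.card_mul_index _).symm
    rw [h2, Nat.factorization_mul Nat.card_pos.ne' Subgroup.index_ne_zero_of_finite]
    simp [Nat.factorization_eq_zero_of_not_dvd (show ¬ r ∣ (cz g).index from h1)]
  have hTeq : (S : Subgroup (cz g)).map (cz g).subtype = T :=
    Subgroup.eq_of_le_of_card_ge hT hcard.ge
  refine ⟨T, ?_, ?_⟩
  · intro d hd
    rw [← SetLike.mem_coe, ← hTeq]
    exact ⟨⟨d, hDg hd⟩, hDS (Subgroup.mem_subgroupOf.2 hd), rfl⟩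
  · rw [← hTeq]; exact Subgroup.map_subtype_le _

theorem zpowers_isPGroup {r : ℕ} (hr : r.Prime) {w : G} (hw : PE r w) : IsPGroup r (Subgroup.zpowers w) := by
  obtain ⟨j, hj⟩ := hw.orderOf hr
  haveI : Fact r.Prime := ⟨hr⟩
  refine IsPGroup.of_card (n := j) ?_
  rw [Nat.card_zpowers, hj]

theorem PE.conj {r : ℕ} {w : G} (hw : PE r w) (g : G) : PE r (g * w * g⁻¹) := by
  obtain ⟨k, hk⟩ := hw
  exact ⟨k, by rw [conj_pow, hk]; group⟩

theorem conj_not_central {w : G} (hw : w ∉ Subgroup.center G) (g : G) : g * w * g⁻¹ ∉ Subgroup.center G := by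
  intro h
  apply hw
  have := (inferInstance : (Subgroup.center G).Normal).conj_mem _ h g⁻¹
  convert this using 1
  group

/-- an `r`-element is conjugate into `cz g` if `r` does not divide `cs g`. -/
theorem exists_conj_mem_cz {r : ℕ} (hr : r.Prime) {g : G} (h1 : ¬ r ∣ cs g) {w : G} (hw : PE r w) :
    ∃ c : G, c * w * c⁻¹ ∈ cz g := by
  haveI : Fact r.Prime := ⟨hr⟩
  obtain ⟨R, _, hR⟩ := exists_sylow_le hr h1 (IsPGroup.of_bot (p := r) (G := G)) bot_le
  obtain ⟨S, hS⟩ := (zpowers_isPGroup hr hw).exists_le_sylow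
  obtain ⟨c, hc⟩ := MulAction.exists_smul_eq G S R
  refine ⟨c, hR ?_⟩
  have h2 : w ∈ (S : Subgroup G) := hS (Subgroup.mem_zpowers w)
  rw [← SetLike.mem_coe, ← hc]
  exact ⟨w, h2, rfl⟩

end Cfsg.Agent.BT.Fc
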