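import Mathlib
import Cfsg.Prelude.Def_Perm
import Cfsg.Agent.H99.SubCount

/-! Counting in semiaffine groups and orbits on subspaces. -/

set_option autoImplicit false

namespace Cfsg.Agent.BT.SA

open Module

/-- automorphisms of a finite field -/
theorem card_ringEquiv (F : Type*) [Field F] [Finite F] {p n : ℕ} [hp : Fact p.Prime] (hF : Nat.card F = p ^ n) :
    Nat.card (F ≃+* F) = n := by
  have := Fintype.ofFinite F
  rw [Nat.card_eq_fintype_card] at hF
  have hn : n ≠ 0 := by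
    rintro rfl
    rw [pow_zero] at hF
    exact absurd hF Fintype.one_lt_card.ne'
  have hchar : CharP F p := by
    obtain ⟨p', hp'⟩ := CharP.exists F
    obtain ⟨k, hk, hk'⟩ := FiniteField.card F p'
    have h1 : p ∣ p' ^ (k : ℕ) := by
      rw [← hk', hF]
      exact dvd_pow_self p hn
    have h2 := (Nat.prime_dvd_prime_iff_eq hp.out hk).1 (hp.out.dvd_of_dvd_pow h1)
    rw [h2]; exact hp'
  let _ : Algebra (ZMod p) F := ZMod.algebra F p
  have fF : Module.finrank (ZMod p) F = n := by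
    have := Module.card_eq_pow_finrank (K := ZMod p) (V := F)
    rw [ZMod.card, hF] at this
    exact (Nat.pow_right_injective hp.out.two_le this).symm
  have h1 : Nat.card (F ≃ₐ[ZMod p] F) = n := by
    rw [← fF]; exact IsGalois.card_aut_eq_finrank (ZMod p) F
  rw [← h1]
  refine Nat.card_congr ⟨fun σ => AlgEquiv.ofRingEquiv (f := σ) fun r => ?_,
    fun σ => σ.toRingEquiv, ?_, ?_⟩
  · exact RingHom.congr_fun (Subsingleton.elim ((σ : F →+* F).comp (algebraMap (ZMod p) F))
      (algebraMap (ZMod p) F)) r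
  · intro σ; rfl
  · intro σ; rfl

/-- the semilinear permutations -/
def semilin (F : Type*) [Field F] : Subgroup (Equiv.Perm F) where
  carrier := {σ | ∃ a : Fˣ, ∃ φ : F ≃+* F, ∀ x, σ x = (a : F) * φ x}
  one_mem' := ⟨1, RingEquiv.refl F, fun x => by simp⟩
  mul_mem' := by
    rintro σ τ ⟨a, φ, hσ⟩ ⟨c, ψ, hτ⟩
    refine ⟨a * Units.map (φ : F →* F) c, ψ.trans φ, fun x => ?_⟩
    simp only [Equiv.Perm.coe_mul, Function.comp_apply, hτ, hσ, Units.val_mul, Units.coe_map,
      MonoidHom.coe_coe, RingEquiv.coe_trans, map_mul, mul_assoc]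
  inv_mem' := by
    rintro σ ⟨a, φ, hσ⟩
    refine ⟨Units.map (φ.symm : F →* F) a⁻¹, φ.symm, fun x => ?_⟩
    apply σ.injective
    rw [Equiv.Perm.inv_def, Equiv.apply_symm_apply, hσ]
    simp only [Units.coe_map, MonoidHom.coe_coe, ← map_mul, 
      RingEquiv.apply_symm_apply, ← mul_assoc, Units.mul_inv, one_mul]

theorem mem_semilin {F : Type*} [Field F] {σ : Equiv.Perm F} :
    σ ∈ semilin F ↔ ∃ a : Fˣ, ∃ φ : F ≃+* F, ∀ x, σ x = (a : F) * φ x := Iff.rfl

theorem mem_semiaff {F : Type*} [Field F] {σ : Equiv.Perm F} :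
    σ ∈ Cfsg.semiaffineGroup F ↔ ∃ a : Fˣ, ∃ b : F, ∃ φ : F ≃+* F, ∀ x, σ x = (a : F) * φ x + b := Iff.rfl

theorem mem_aff {F : Type*} [Field F] {σ : Equiv.Perm F} :
    σ ∈ Cfsg.affineGroup F ↔ ∃ a : Fˣ, ∃ b : F, ∀ x, σ x = (a : F) * x + b := Iff.rfl

/-- the permutation `x ↦ a φ x + b` -/
def sper {F : Type*} [Field F] (a : Fˣ) (b : F) (φ : F ≃+* F) : Equiv.Perm F where
  toFun x := (a : F) * φ x + b
  invFun y := φ.symm (((a⁻¹ : Fˣ) : F) * (y - b))
  left_inv x := by simp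
  right_inv y := by simp

theorem sper_apply {F : Type*} [Field F] (a : Fˣ) (b : F) (φ : F ≃+* F) (x : F) :
    sper a b φ x = (a : F) * φ x + b := rfl

theorem sper_inj {F : Type*} [Field F] {a a' : Fˣ} {b b' : F} {φ φ' : F ≃+* F}
    (h : sper a b φ = sper a' b' φ') : a = a' ∧ b = b' ∧ φ = φ' := by
  have h0 := DFunLike.congr_fun h 0
  rw [sper_apply, sper_apply, map_zero, map_zero, mul_zero, mul_zero, zero_add, zero_add] at h0
  have h1 := DFunLike.congr_fun h 1
  rw [sper_apply, sper_apply, map_one, map_one, mul_one, mul_one, h0] at h1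
  have h2 := add_right_cancel h1
  have ha : a = a' := Units.ext h2
  refine ⟨ha, h0, ?_⟩
  ext x
  have h3 := DFunLike.congr_fun h x
  rw [sper_apply, sper_apply, h0, ha] at h3
  exact mul_left_cancel₀ a'.ne_zero (add_right_cancel h3)

variable (F : Type*) [Field F] [Finite F] {p n : ℕ} [hp : Fact p.Prime] (hF : Nat.card F = p ^ n)

include hF in
theorem card_units_eq : Nat.card Fˣ = p ^ n - 1 := by
  classical
  have := Fintype.ofFinite F
  rw [← hF, Nat.card_eq_fintype_card, Nat.card_eq_fintype_card, Fintype.card_units]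

include hF in
theorem card_semilin : Nat.card (semilin F) = (p ^ n - 1) * n := by
  rw [← card_units_eq F hF]
  nth_rw 1 [← card_ringEquiv F hF]
  rw [← Nat.card_prod]
  symm
  refine Nat.card_congr (Equiv.ofBijective (fun x : Fˣ × (F ≃+* F) => (⟨sper x.1 0 x.2, x.1, x.2, fun y => by
    rw [sper_apply, add_zero]⟩ : semilin F)) ⟨?_, ?_⟩)
  · rintro ⟨a, φ⟩ ⟨a', φ'⟩ h
    obtain ⟨h1, -, h2⟩ := sper_inj (congrArg Subtype.val h)
    simp only at h1 h2
    rw [h1, h2]
  · rintro ⟨σ, a, φ, h⟩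
    refine ⟨(a, φ), Subtype.ext (Equiv.ext fun y => ?_)⟩
    rw [h]
    simp only [sper_apply, add_zero]

include hF in
theorem card_semiaff : Nat.card (Cfsg.semiaffineGroup F) = p ^ n * ((p ^ n - 1) * n) := by
  rw [← card_units_eq F hF, ← hF]
  nth_rw 1 [← card_ringEquiv F hF]
  rw [← Nat.card_prod, ← Nat.card_prod]
  symm
  refine Nat.card_congr (Equiv.ofBijective (fun x : F × (Fˣ × (F ≃+* F)) => (⟨sper x.2.1 x.1 x.2.2, x.2.1, x.1, x.2.2,
    fun y => rfl⟩ : Cfsg.semiaffineGroup F)) ⟨?_, ?_⟩)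
  · rintro ⟨b, a, φ⟩ ⟨b', a', φ'⟩ h
    obtain ⟨h1, h2, h3⟩ := sper_inj (congrArg Subtype.val h)
    simp only at h1 h2 h3
    rw [h1, h2, h3]
  · rintro ⟨σ, a, b, φ, h⟩
    refine ⟨(b, a, φ), Subtype.ext (Equiv.ext fun y => ?_)⟩
    rw [h]
    rfl

include hF in
theorem card_aff : Nat.card (Cfsg.affineGroup F) = p ^ n * (p ^ n - 1) := by
  rw [← card_units_eq F hF, ← hF, ← Nat.card_prod]
  symm
  refine Nat.card_congr (Equiv.ofBijective (fun x : F × Fˣ => (⟨sper x.2 x.1 (RingEquiv.refl F), x.2, x.1,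
    fun y => rfl⟩ : Cfsg.affineGroup F)) ⟨?_, ?_⟩)
  · rintro ⟨b, a⟩ ⟨b', a'⟩ h
    obtain ⟨h1, h2, h3⟩ := sper_inj (congrArg Subtype.val h)
    simp only at h1 h2 h3
    rw [h1, h2]
  · rintro ⟨σ, a, b, h⟩
    refine ⟨(b, a), Subtype.ext (Equiv.ext fun y => ?_)⟩
    rw [h]
    rfl

section orbit

variable {K V : Type*} [Field K] [Finite K] [AddCommGroup V] [Module K V] [Finite V]

/-- orbit-stabilizer for the action on `m`-dimensional subspaces -/
theorem orbit_card {Γ : Type*} [Group Γ] [Finite Γ] (ρ : Γ →* (V ≃ₗ[K] V)) (m : ℕ) (W₀ : Submodule K V)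
    (hW₀ : finrank K W₀ = m)
    (htr : ∀ W : Submodule K V, finrank K W = m → ∃ g : Γ, W = W₀.map (ρ g).toLinearMap) :
    ∃ S : Subgroup Γ, (∀ g, g ∈ S ↔ W₀.map (ρ g).toLinearMap = W₀) ∧
      Nat.card {W : Submodule K V // finrank K W = m} * Nat.card S = Nat.card Γ := by
  letI act : MulAction Γ (Submodule K V) :=
    { smul := fun g W => W.map (ρ g).toLinearMap
      one_smul := fun W => by
        change W.map (ρ 1).toLinearMap = W
        rw [map_one]
        exact Submodule.map_id W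
      mul_smul := fun g h W => by
        change W.map (ρ (g * h)).toLinearMap = (W.map (ρ h).toLinearMap).map (ρ g).toLinearMap
        rw [map_mul, ← Submodule.map_comp]
        rfl }
  have hsmul : ∀ (g : Γ) (W : Submodule K V), g • W = W.map (ρ g).toLinearMap := fun _ _ => rfl
  refine ⟨MulAction.stabilizer Γ W₀, fun g => ?_, ?_⟩
  · rw [MulAction.mem_stabilizer_iff, hsmul]
  · have h1 := Nat.card_congr (MulAction.orbitProdStabilizerEquivGroup Γ W₀)
    rw [Nat.card_prod] at h1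
    rw [← h1]
    congr 1
    refine Nat.card_congr (Equiv.subtypeEquivRight fun W => ?_)
    rw [MulAction.mem_orbit_iff]
    constructor
    · intro h
      obtain ⟨g, hg⟩ := htr W h
      exact ⟨g, hg.symm⟩
    · rintro ⟨g, rfl⟩
      rw [hsmul, ← hW₀]
      exact (ρ g).finrank_map_eq W₀

end orbit

end Cfsg.Agent.BT.SA
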